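import Mathlib
import Cfsg.Agent.Bld.Main
import Cfsg.Agent.Spor.TTBasic

/-! A simple group with a frame of twelve long root elements of type `B₃` and parameters `2, 2, 4` is `Ω₈⁻(2)`. -/

set_option autoImplicit false
set_option synthInstance.maxSize 10000

namespace Cfsg.Agent.W4M

open Cfsg.Agent.Bld Cfsg.Agent.Chev Cfsg.Agent.Spor.TT Subgroup

variable {G : Type*} [Group G]

theorem iso_of_bn [Finite G] [IsSimpleGroup G] (P : Cfsg.BNPair G) (e : Fin 3 ≃ P.S)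
    (he : ∀ i j, P.coxM (e i) (e j) = CoxeterMatrix.B 3 i j) (h2 : (ofBN P).par (e 1) ((1 : G) : G ⧸ P.B) ≤ 2)
    (h3 : 2 < (ofBN P).par (e 2) ((1 : G) : G ⧸ P.B)) :
    Nonempty (G ≃* Cfsg.POmega (ZMod 2) (Cfsg.quadFormMinus 3 (ZMod 2) 1 1)) := by
  have : Nonempty P.S := ⟨e 0⟩
  have he' : ∀ i j, CoxeterMatrix.B 3 (e.symm i) (e.symm j) = P.coxM i j := fun i j => by simp [← he]
  obtain ⟨f, hf⟩ := exists_isCI P.cs (CoxeterMatrix.B 3).toCoxeterSystem e.symm he'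
  have := sph_cs P
  have := hf.sph he'
  have : Finite (CoxeterMatrix.B 3).Group := Finite.of_equiv _ f.toEquiv
  obtain ⟨d, hd⟩ := Bd.exists_δ (X := (ofBN P).map hf) ((1 : G) : G ⧸ P.B) (wl_mem _ _)
  obtain ⟨a, ha, a1, -⟩ := Bd.exists_apt subset_rfl hd
  have hF : FH (CoxeterMatrix.B 3) := fun i j hij => he i j ▸ fh_coxM P _ _ (e.injective.ne hij)
  have h4 : CoxeterMatrix.B 3 1 2 = 4 := by simp [B_apply]
  have h : Rk3 (CoxeterMatrix.B 3) 0 1 2 := ⟨by simp [B_apply], Or.inr h4, by simp [B_apply]⟩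
  have hp : ∀ i, ((ofBN P).map hf).par i (a 1) = (ofBN P).par (e i) ((1 : G) : G ⧸ P.B) := fun i => by
    rw [← (ofBN P).map_par hf, e.symm_apply_apply, a1]
  have h5 := Bd.quad_par hF h h4 (Set.subset_univ _) ha
  have q2 : ((ofBN P).map hf).par 1 (a 1) = 2 := le_antisymm (hp 1 ▸ h2) h5.1.two_le
  rw [← hp] at h3
  have q4 : ((ofBN P).map hf).par 2 (a 1) = 4 := by
    rw [q2] at h5
    rcases h5.2 with ⟨-, k | k⟩ | ⟨-, k, -⟩ | ⟨-, r, hr, k, -⟩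
    · omega
    · exact k
    · omega
    · have := hr.two_le; nlinarith
  have hab : ∀ x y : ZMod 2, x ^ 2 + 1 * x * y + 1 * y ^ 2 = 0 → x = 0 ∧ y = 0 := by decide
  have hH : Kn (CoxeterMatrix.B 3) (qB 3 (Nat.card (ZMod 2)) (Nat.card (ZMod 2) ^ 2))
      (POmega (ZMod 2) (quadFormMinus 3 (ZMod 2) 1 1)) := ⟨inferInstance, S0297.result 4 (by omega) 1 1 hab,
    Or.inr (Or.inr (Or.inr (Or.inr (Or.inr (Or.inl ⟨ZMod 2, _, inferInstance, 4, 1, 1, by omega, hab, ⟨.refl _⟩⟩))))),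
    (KC.cl_minus (p := 2) hab (by omega)).kdB⟩
  have hg : Grow (CoxeterMatrix.B 3) 1 2 _ := grow_B (n := 0)
  obtain ⟨C', _, Y, b, -, hb, h1, -, -, h6⟩ := hH.model (CoxeterMatrix.B 3).toCoxeterSystem hg.noIso
  have h7 := Bd.quad_par hF h h4 (Set.subset_univ _) hb
  have p2 : Y.par 1 (b 1) = 2 := by simp [h1, qB]
  have p4 : Y.par 2 (b 1) = 4 := by simp [h1, qB]
  rw [q2, q4] at h5
  rw [p2, p4] at h7
  obtain ⟨φ, hφ⟩ := Bd.quad_iso hF h h4 (Set.subset_univ _) ha hb (q2.trans p2.symm) (q4.trans p4.symm)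
    ((h5.iff (by decide)).trans (h7.iff (by decide)).symm)
  exact iso_of_isoA hg (ofBN_inj P) (((ofBN P).map_wt hf).2 (ofBN_wt P)) ha hb h6 hφ

theorem par_set (P : Cfsg.BNPair G) (s : P.S) (g : G) : (ofBN P).δ ((1 : G) : G ⧸ P.B) (g : G ⧸ P.B) = P.cs.simple s ↔
    ∃ b ∈ P.B, ∃ b' ∈ P.B, g = b * s * b' := by
  rw [ofBN_δ, inv_one, one_mul, P.cs_simple, Cfsg.BNPair.cellOf_eq_iff, Cfsg.BNPair.mem_cell_iff (P.toW_repN s)]
  rfl

/-- A permutation of the twelve long roots as a number. -/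
def pw (n : ℕ) (β : Fin 12) : Fin 12 := Fin.ofNat 12 (n / 16 ^ β.val % 16)

/-- The simple reflections. -/
def wf (i : Fin 3) : Fin 12 → Fin 12 := pw (![0xb9a785634120, 0xab9648375201, 0xb87a96521430] i)

/-- The Weyl group. -/
def WL : List ℕ := [
  0xba9876543210, 0xb9a785634120, 0xab9648375201, 0xb87a96521430, 0xa9b463857021, 0xb789a5612340, 0x9ba537486102,
  0x8b762a195403, 0xa64b98320751, 0x9ab354768012, 0x87b261a59043, 0xa469b3802571, 0x7b85192a6304, 0x6a482b093715,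
  0x953ba7410862, 0x862b7a140953, 0x78b15296a034, 0x64a280b39175, 0x935ab4701682, 0x8267b1a04593, 0x4a63092b8517,
  0x59371b0a4826, 0x682a4b071935, 0x751b89230a64, 0x46a03298b157, 0x539170b4a286, 0x6284a0b17395, 0x7158b29036a4,
  0x39540a1b7628, 0x2861074ba539, 0x57193b082a46, 0x430a69251b87, 0x359041a7b268, 0x2680147ab359, 0x517390b284a6,
  0x4036a29158b7, 0x1752083b964a, 0x34095a162b78, 0x210867453ba9, 0x15702389b46a, 0x304591a267b8, 0x201684735ab9,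
  0x432165a987b, 0x120758364b9a, 0x3412569a78b, 0x1025738469ba, 0x21436587a9b, 0x123456789ab]

/-- The long roots whose root elements centralise the simple short root group. -/
def S3 : List (Fin 12) := [0, 1, 2, 5, 6, 7, 8, 11]

/-- The Coxeter numbers. -/
def mB (i j : Fin 3) : ℕ := ![![1, 3, 2], ![3, 1, 4], ![2, 4, 1]] i j

theorem mB_eq (i j : Fin 3) : mB i j = CoxeterMatrix.B 3 i j := by
  fin_cases i <;> fin_cases j <;> simp [mB, B_apply]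

theorem w_mul : ∀ i, ∀ l ∈ WL, ∃ l' ∈ WL, ∀ β, pw l' β = wf i (pw l β) := by decide +kernel

theorem w_fix : ∀ l ∈ WL, (∀ β, ∃ γ, pw l γ = β) ∧ (pw l 0 = 0 → pw l 1 ∈ [2, 3, 4] ∨ ∀ β, pw l β = β) := by
  decide +kernel

theorem w_pos : ∀ l ∈ WL, ((∃ γ < 6, pw l γ = 5) ∨ ∃ γ < 6, wf 0 (pw l γ) = 5) ∧
    ((∃ γ < 6, pw l γ = 4) ∨ ∃ γ < 6, wf 1 (pw l γ) = 4) ∧
    (pw l 0 ∈ S3 ∧ pw l 1 ∈ S3 ∨ wf 2 (pw l 0) ∈ S3 ∧ wf 2 (pw l 1) ∈ S3) := by decide +kernel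

theorem w_ord : ∀ i j, (wf i ∘ wf j)^[mB i j] 0 = 0 ∧ (wf i ∘ wf j)^[mB i j] 1 = 1 ∧ 0 < mB i j ∧ (i ≠ j → 1 < mB i j) ∧
    ∀ m < mB i j, 0 < m → (wf i ∘ wf j)^[m] 0 = 0 → (wf i ∘ wf j)^[m] 1 ∈ [2, 3, 4] := by decide +kernel

/-- The simple root groups. -/
def UU (r : Fin 12 → G) : Fin 3 → G → Prop
  | 0, u => u = 1 ∨ u = r 5
  | 1, u => u = 1 ∨ u = r 4
  | 2, u => ∀ β ∈ S3, Commute u (r β)

/-- A frame. -/
structure Fr (B : Subgroup G) (r : Fin 12 → G) (s : Fin 3 → G) : Prop where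
  act : ∀ i β, cj (s i) (r β) = r (wf i β)
  sq : ∀ i, s i * s i = 1
  mem : ∀ g, cj g (r 0) = r 0 → cj g (r 1) = r 1 → g ∈ B
  pos : ∀ β < 6, r β ∈ B
  neg : r 6 ∉ B ∧ r 7 ∉ B
  i0 : ∀ g ∈ B, ∀ β, cj g (r 0) = r β → β = 0
  i1 : ∀ g ∈ B, ∀ γ ∈ [2, 3, 4], cj g (r 1) ≠ r γ
  hB : ∀ i, ∀ b ∈ B, ∃ u, UU r i u ∧ (u * s i)⁻¹ * (b * s i) ∈ B
  hS : ∀ i, ∀ b ∈ B, s i * b * s i ∈ B ∨ ∃ u, UU r i u ∧ (u * s i)⁻¹ * (s i * b * s i) ∈ B
  three : ∃ u u', UU r 2 u ∧ UU r 2 u' ∧ s 2 * u * s 2 ∉ B ∧ s 2 * u' * s 2 ∉ B ∧ s 2 * (u⁻¹ * u') * s 2 ∉ B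
  top : B ⊔ closure (Set.range s) = ⊤

namespace Fr

variable {B : Subgroup G} {r : Fin 12 → G} {s : Fin 3 → G} (h : Fr B r s) {n g : G} {i : Fin 3}
include h

theorem inv (i : Fin 3) : (s i)⁻¹ = s i := inv_eq_of_mul_eq_one_right (h.sq i)

theorem code (hn : n ∈ closure (Set.range s ∪ {g | ∀ β, cj g (r β) = r β})) : ∃ l ∈ WL, ∀ β, cj n (r β) = r (pw l β) := by
  have key : ∀ i n, (∃ l ∈ WL, ∀ β, cj n (r β) = r (pw l β)) → ∃ l ∈ WL, ∀ β, cj (s i * n) (r β) = r (pw l β) :=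
    fun i n ⟨l, h1, h2⟩ => let ⟨l', h3, h4⟩ := w_mul i l h1; ⟨l', h3, fun β => by rw [← cj_cj, h2, h.act, h4]⟩
  refine closure_induction_left ⟨_, List.mem_cons_self, fun β => by
    rw [cj_one, show pw 0xba9876543210 β = β by revert β; decide +kernel]⟩ ?_ ?_ hn
  · rintro _ (⟨i, rfl⟩ | k) y - ih
    · exact key i y ih
    · obtain ⟨l, h1, h2⟩ := ih
      exact ⟨l, h1, fun β => by rw [← cj_cj, h2, k]⟩
  · rintro _ (⟨i, rfl⟩ | k) y - ih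
    · exact (h.inv i).symm ▸ key i y ih
    · obtain ⟨l, h1, h2⟩ := ih
      exact ⟨l, h1, fun β => by rw [← cj_cj, h2, ← cj_eq_iff.1 (k _)]⟩

theorem pow (i j : Fin 3) (m : ℕ) (β : Fin 12) : cj ((s i * s j) ^ m) (r β) = r ((wf i ∘ wf j)^[m] β) := by
  induction m with
  | zero => rw [pow_zero, cj_one]; rfl
  | succ m ih => rw [pow_succ', ← cj_cj, ih, ← cj_cj, h.act, h.act, Function.iterate_succ_apply']; rfl

theorem pow_mem (i j : Fin 3) : (s i * s j) ^ mB i j ∈ B ∧ ∀ m < mB i j, 0 < m → (s i * s j) ^ m ∉ B :=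
  ⟨h.mem _ (by rw [h.pow, (w_ord i j).1]) (by rw [h.pow, (w_ord i j).2.1]), fun m h1 h2 k =>
    h.i1 _ k _ ((w_ord i j).2.2.2.2 m h1 h2 (h.i0 _ k _ (h.pow i j m 0))) (h.pow i j m 1)⟩

theorem eq_of_mem {i j : Fin 3} (k : (s i)⁻¹ * s j ∈ B) : i = j := by_contra fun e =>
  (h.pow_mem i j).2 1 ((w_ord i j).2.2.2.1 e) one_pos (by rwa [pow_one, ← h.inv i])

theorem root (hn : n ∈ closure (Set.range s ∪ {g | ∀ β, cj g (r β) = r β})) (i : Fin 3) :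
    (∀ u, UU r i u → n⁻¹ * u * n ∈ B) ∨ ∀ u, UU r i u → (s i * n)⁻¹ * u * (s i * n) ∈ B := by
  obtain ⟨l, h1, h2⟩ := h.code hn
  have k1 : ∀ (g : G) (γ α : Fin 12), γ < 6 → cj g (r γ) = r α → ∀ u, u = 1 ∨ u = r α → g⁻¹ * u * g ∈ B := by
    rintro g γ α k e _ (rfl | rfl)
    · simpa using one_mem B
    · simpa [← e, cj, mul_assoc] using h.pos γ k
  have k2 : ∀ (g u : G) (γ α : Fin 12), cj g (r γ) = r α → Commute u (r α) → cj (g⁻¹ * u * g) (r γ) = r γ :=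
    fun g u γ α e k => by rw [← cj_cj, ← cj_cj, e, cj_of_commute k, ← e, cj_inv_cj]
  have k3 : ∀ j β, cj (s j * n) (r β) = r (wf j (pw l β)) := fun j β => by rw [← cj_cj, h2, h.act]
  obtain ⟨p0, p1, p2⟩ := w_pos l h1
  fin_cases i
  · exact p0.imp (fun ⟨γ, a, b⟩ => k1 _ γ 5 a (b ▸ h2 γ)) fun ⟨γ, a, b⟩ => k1 _ γ 5 a (b ▸ k3 0 γ)
  · exact p1.imp (fun ⟨γ, a, b⟩ => k1 _ γ 4 a (b ▸ h2 γ)) fun ⟨γ, a, b⟩ => k1 _ γ 4 a (b ▸ k3 1 γ)
  · exact p2.imp (fun a u k => h.mem _ (k2 _ _ _ _ (h2 0) (k _ a.1)) (k2 _ _ _ _ (h2 1) (k _ a.2)))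
      fun a u k => h.mem _ (k2 _ _ _ _ (k3 2 0) (k _ a.1)) (k2 _ _ _ _ (k3 2 1) (k _ a.2))

theorem UU_le {u : G} (k : UU r i u) : u ∈ B := by
  fin_cases i
  · exact k.elim (· ▸ one_mem B) (· ▸ h.pos 5 (by decide))
  · exact k.elim (· ▸ one_mem B) (· ▸ h.pos 4 (by decide))
  · exact h.mem _ (cj_of_commute (k 0 (by decide))) (cj_of_commute (k 1 (by decide)))

theorem exists_ne (i : Fin 3) : ∃ b ∈ B, s i * b * s i ∉ B := by
  have k : ∀ i β, s i * r β * s i = r (wf i β) := fun i β => by rw [← h.act, cj, h.inv]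
  fin_cases i
  · exact ⟨r 5, h.pos 5 (by decide), fun e => h.neg.1 ((show s 0 * r 5 * s 0 = r 6 from k 0 5) ▸ e)⟩
  · exact ⟨r 4, h.pos 4 (by decide), fun e => h.neg.2 ((show s 1 * r 4 * s 1 = r 7 from k 1 4) ▸ e)⟩
  · obtain ⟨u, -, h1, -, h2, -⟩ := h.three
    exact ⟨u, h.UU_le h1, h2⟩

/-- The (B,N)-pair of a frame. -/
def bn : Cfsg.BNPair G where
  B := B
  N := closure (Set.range s ∪ {g | ∀ β, cj g (r β) = r β})
  S := Set.range s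
  sup_eq_top := top_le_iff.1 (h.top.ge.trans (sup_le_sup_left (Subgroup.closure_mono Set.subset_union_left) _))
  conj_mem n hn t ht := by
    obtain ⟨l, h1, h2⟩ := h.code ht.2
    obtain ⟨l', h3, h4⟩ := h.code hn
    have h5 := ((w_fix l h1).2 (h.i0 t ht.1 _ (h2 0))).resolve_left fun k => h.i1 t ht.1 _ k (h2 1)
    have h6 : ∀ β, cj (n * t * n⁻¹) (r β) = r β := fun β => by
      obtain ⟨γ, rfl⟩ := (w_fix l' h3).1 β
      rw [← h4, ← cj_cj, cj_inv_cj, ← cj_cj, h2, h5]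
    exact h.mem _ (h6 0) (h6 1)
  subset := fun _ k => subset_closure (.inl k)
  sq_mem := by rintro _ ⟨i, rfl⟩; exact h.sq i ▸ one_mem B
  inj := by rintro _ ⟨i, rfl⟩ _ ⟨j, rfl⟩ k; rw [h.eq_of_mem k]
  closure_sup := le_antisymm (sup_le (Subgroup.closure_mono Set.subset_union_left) inf_le_right) ((closure_le _).2 fun g k =>
    k.elim (fun k => mem_sup_left (subset_closure k)) fun k => mem_sup_right ⟨h.mem _ (k 0) (k 1), subset_closure (.inr k)⟩)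
  mul_mem_union := by
    rintro _ ⟨i, rfl⟩ n hn b hb
    obtain ⟨u, h1, h2⟩ := h.hB i _ (inv_mem hb)
    have e : ∀ x, s i * (s i * x) = x := fun x => by rw [← mul_assoc, h.sq, one_mul]
    simp only [Set.mem_union, DoubleCoset.mem_doubleCoset, SetLike.mem_coe]
    rcases h.root hn i with k | k
    · exact .inl ⟨_, inv_mem h2, _, inv_mem (k u h1), by simp [mul_assoc, h.inv, e]⟩
    rcases h.hS i u (h.UU_le h1) with k' | ⟨u', h3, h4⟩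
    · exact .inl ⟨_, mul_mem (inv_mem h2) (inv_mem k'), 1, one_mem B, by simp [mul_assoc, h.inv, e]⟩
    · exact .inr ⟨_, mul_mem (inv_mem h2) (inv_mem h4), _, inv_mem (k u' h3), by simp [mul_assoc, h.inv, e]⟩
  conj_ne := by
    rintro _ ⟨i, rfl⟩ k
    obtain ⟨b, h1, h2⟩ := h.exists_ne i
    exact h2 (k.le ⟨b, h1, rfl⟩)

theorem iso [Finite G] [IsSimpleGroup G] :
    Nonempty (G ≃* Cfsg.POmega (ZMod 2) (Cfsg.quadFormMinus 3 (ZMod 2) 1 1)) := by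
  let e : Fin 3 ≃ h.bn.S := Equiv.ofInjective s fun i j k => h.eq_of_mem (by rw [k, inv_mul_cancel]; exact one_mem B)
  refine iso_of_bn h.bn e (fun i j => ?_) ?_ ?_
  · rw [Cfsg.BNPair.coxM_apply, ← mB_eq, orderOf_eq_iff (w_ord i j).2.2.1]
    simp only [Ne, simple_pow_eq_one]
    exact h.pow_mem i j
  · refine (Set.ncard_le_ncard (t := {((s 1 : G) : G ⧸ B), ((r 4 * s 1 : G) : G ⧸ B)}) (fun x hx => ?_)).trans
      (Set.ncard_insert_le _ _ |>.trans (by rw [Set.ncard_singleton]))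
    obtain ⟨g, rfl⟩ := QuotientGroup.mk_surjective x
    obtain ⟨b, h1, b', h2, rfl⟩ := (par_set h.bn (e 1) g).1 hx
    obtain ⟨u, h3, h4⟩ := h.hB 1 b h1
    have h5 : ((b * s 1 * b' : G) : G ⧸ B) = (u * s 1 : G) := (QuotientGroup.eq.2 (mul_assoc _ _ b' ▸ mul_mem h4 h2)).symm
    exact h3.imp (fun k => h5.trans (by rw [k, one_mul])) fun k => h5.trans (by rw [k])
  · obtain ⟨u, u', h1, h2, h3, h4, h5⟩ := h.three
    have k : ∀ u, u ∈ B → (ofBN h.bn).δ ((1 : G) : G ⧸ B) ((u * s 2 : G) : G ⧸ B) = h.bn.cs.simple (e 2) := fun u k =>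
      (par_set h.bn (e 2) _).2 ⟨u, k, 1, one_mem B, (mul_one _).symm⟩
    refine (Set.two_lt_ncard (Set.toFinite _)).2 ⟨_, k 1 (one_mem B), _, k u (h.UU_le h1), _, k u' (h.UU_le h2),
      fun e => h3 ?_, fun e => h4 ?_, fun e => h5 ?_⟩ <;>
    simpa [h.inv, mul_assoc] using QuotientGroup.eq.1 e

end Fr

end Cfsg.Agent.W4M
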